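import Cfsg.Agent.UGT.A7.B.CentTransfer
set_option linter.all false

/-!
# Transfer of an involution of a Sylow 2-subgroup without perfectness

`eq_one_of_hom`: the form of `UGT.A7.B.CentTransfer.eq_one_of_weak` in which the group is only assumed to
have no homomorphism to `A` moving `e`; `hom_eq_one_of_index_ne_two` supplies this from the absence of
subgroups of index two.
-/

set_option autoImplicit false

open Subgroup MulAction

namespace Cfsg.Agent.H19.CentTransfer

open Cfsg.Agent.UGT.A7.B.CentTransfer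

variable {G A : Type*} [Group G] [CommGroup A]

/-- A finite commutative group with an involution has a subgroup of index two. -/
theorem exists_index_two {B : Type*} [CommGroup B] [Finite B] {b : B} (hb : b * b = 1) (hb1 : b ≠ 1) :
    ∃ H : Subgroup B, H.index = 2 := by
  classical
  let σ : B →* B := powMonoidHom 2
  have hσ : σ.range ≠ ⊤ := by
    intro h
    have hs : Function.Surjective σ := MonoidHom.range_eq_top.mp h
    have hi : Function.Injective σ := Finite.injective_iff_surjective.mpr hs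
    apply hb1
    apply hi
    change b ^ 2 = 1 ^ 2
    rw [pow_two, hb, one_pow]
  obtain ⟨H, hH, hσH⟩ := IsCoatomic.eq_top_or_exists_le_coatom (σ.range) |>.resolve_left hσ
  obtain ⟨x, hx⟩ : ∃ x, x ∉ H := by
    by_contra hcon
    push Not at hcon
    exact hH.1 (eq_top_iff.mpr fun y _ => hcon y)
  have hsq : ∀ y : B, y ^ 2 ∈ H := fun y => hσH ⟨y, rfl⟩
  have htop : H ⊔ zpowers x = ⊤ := by
    refine hH.2 _ (lt_of_le_of_ne le_sup_left fun h => hx ?_)
    rw [h]
    exact le_sup_right (a := H) (mem_zpowers x)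
  refine ⟨H, Subgroup.index_eq_two_iff.mpr ⟨x, fun y => ?_⟩⟩
  have hy : y ∈ H ⊔ zpowers x := by rw [htop]; trivial
  obtain ⟨h, hh, w, ⟨k, rfl⟩, rfl⟩ := Subgroup.mem_sup.mp hy
  have hz2 : ∀ n : ℤ, x ^ (2 * n) ∈ H := by
    intro n
    rw [zpow_mul]
    exact Subgroup.zpow_mem _ (by exact_mod_cast hsq x) n
  have key : ∀ n : ℤ, x ^ n ∈ H ↔ Even n := by
    intro n
    constructor
    · intro hn
      by_contra hodd
      rw [Int.not_even_iff_odd] at hodd
      obtain ⟨m, rfl⟩ := hodd
      rw [zpow_add, zpow_one] at hn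
      exact hx ((H.mul_mem_cancel_left (hz2 m)).mp hn)
    · rintro ⟨m, rfl⟩
      rw [← two_mul]
      exact hz2 m
  simp only
  rw [mul_assoc, H.mul_mem_cancel_left hh, H.mul_mem_cancel_left hh, ← zpow_add_one, key, key]
  by_cases hk : Even k
  · right
    refine ⟨hk, ?_⟩
    rw [Int.not_even_iff_odd]
    exact hk.add_one
  · left
    refine ⟨?_, hk⟩
    rw [Int.not_even_iff_odd] at hk
    exact hk.add_one

/-- In a finite group without subgroups of index two involutions lie in the kernel of all homomorphisms to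
commutative groups. -/
theorem hom_eq_one_of_index_ne_two [Finite G] (hG : ∀ H : Subgroup G, H.index ≠ 2) (f : G →* A) {e : G}
    (he : e * e = 1) : f e = 1 := by
  by_contra hne
  have hfin : Finite f.range := Finite.of_surjective _ f.rangeRestrict_surjective
  obtain ⟨H, hH⟩ := exists_index_two (B := f.range) (b := ⟨f e, ⟨e, rfl⟩⟩)
    (Subtype.ext (by change f e * f e = 1; rw [← map_mul, he, map_one]))
    (fun h => hne (congrArg Subtype.val h))
  refine hG (H.comap f.rangeRestrict) ?_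
  rw [Subgroup.index_comap_of_surjective _ f.rangeRestrict_surjective, hH]

/-- **Transfer** of an involution `e` of a 2-subgroup `T ≤ S`, `e` central in `T`, such that `φ` is constant on the
conjugates `g⁻¹ e g`, `g⁻¹ T g ≤ S`. -/
theorem eq_one_of_hom [Finite G] (S : Sylow 2 G) (φ : ↥(S : Subgroup G) →* A) {e : G} (hG : ∀ f : G →* A, f e = 1)
    (he : e ∈ (S : Subgroup G)) (hee : e * e = 1) {T : Subgroup G} (hTS : T ≤ (S : Subgroup G)) (heT : e ∈ T)
    (hTe : ∀ t ∈ T, t * e = e * t)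
    (hc : ∀ g : G, (∀ t ∈ T, g⁻¹ * t * g ∈ (S : Subgroup G)) → ∀ h : g⁻¹ * e * g ∈ (S : Subgroup G),
      φ ⟨g⁻¹ * e * g, h⟩ = φ ⟨e, he⟩) : φ ⟨e, he⟩ = 1 := by
  classical
  have hp : Fact (Nat.Prime 2) := ⟨Nat.prime_two⟩
  let Q := G ⧸ (S : Subgroup G)
  have hfin : Finite Q := inferInstance
  cases nonempty_fintype Q
  -- the parity
  let v : Q → G → A := fun ω g => if h : ω.out⁻¹ * g * ω.out ∈ (S : Subgroup G) then φ ⟨_, h⟩ else 1
  have hmem : ∀ (ω : Q) (g : G), g • ω = ω ↔ ω.out⁻¹ * g * ω.out ∈ (S : Subgroup G) := by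
    intro ω g
    conv_lhs => rw [← QuotientGroup.out_eq' ω]
    change ((g * ω.out : G) : Q) = (ω.out : Q) ↔ _
    rw [eq_comm, QuotientGroup.eq, mul_assoc]
  -- the value does not depend on the representative
  have hrep : ∀ (ω : Q) (r g : G), (r : Q) = ω → g • ω = ω → ∃ h : r⁻¹ * g * r ∈ (S : Subgroup G),
      v ω g = φ ⟨r⁻¹ * g * r, h⟩ := by
    intro ω r g hr hg
    have h1 := (hmem ω g).mp hg
    have h2 : ω.out⁻¹ * r ∈ (S : Subgroup G) := by
      rw [← QuotientGroup.eq, QuotientGroup.out_eq', hr]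
    have h3 : r⁻¹ * g * r = (ω.out⁻¹ * r)⁻¹ * (ω.out⁻¹ * g * ω.out) * (ω.out⁻¹ * r) := by group
    have h4 : r⁻¹ * g * r ∈ (S : Subgroup G) := by
      rw [h3]
      exact mul_mem (mul_mem (inv_mem h2) h1) h2
    refine ⟨h4, ?_⟩
    have h5 : (⟨r⁻¹ * g * r, h4⟩ : ↥(S : Subgroup G)) =
        (⟨ω.out⁻¹ * r, h2⟩ : ↥(S : Subgroup G))⁻¹ * ⟨ω.out⁻¹ * g * ω.out, h1⟩ * ⟨ω.out⁻¹ * r, h2⟩ := Subtype.ext h3
    rw [h5, map_mul, map_mul, map_inv, mul_comm (φ _)⁻¹, inv_mul_cancel_right]
    exact dif_pos h1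
  have hv : IsVal v := by
    constructor
    · intro ω g h hg hh
      have h1 := (hmem ω g).mp hg
      have h2 := (hmem ω h).mp hh
      have h3 : ω.out⁻¹ * (g * h) * ω.out = (ω.out⁻¹ * g * ω.out) * (ω.out⁻¹ * h * ω.out) := by group
      have h4 : ω.out⁻¹ * (g * h) * ω.out ∈ (S : Subgroup G) := by rw [h3]; exact mul_mem h1 h2
      change (if h : _ then _ else _) = (if h : _ then _ else _) * (if h : _ then _ else _)
      rw [dif_pos h1, dif_pos h2, dif_pos h4, ← map_mul]
      congr 1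
      exact Subtype.ext h3
    · intro ω g h hh
      have h1 : (g * h * g⁻¹) • (g • ω) = g • ω := by
        rw [← mul_smul, inv_mul_cancel_right, mul_smul, hh]
      have h2 : ((g * ω.out : G) : Q) = g • ω := by
        conv_rhs => rw [← QuotientGroup.out_eq' ω]
        rfl
      obtain ⟨h3, h4⟩ := hrep (g • ω) (g * ω.out) (g * h * g⁻¹) h2 h1
      obtain ⟨h5, h6⟩ := hrep ω ω.out h (QuotientGroup.out_eq' ω) hh
      rw [h4, h6]
      congr 1
      exact Subtype.ext (by group)
  obtain ⟨f, hf⟩ := exists_hom hv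
  have h1 := hf e (Finset.univ.filter fun ω : Q => e • ω = ω) hee (fun ω => by
    rw [Finset.mem_filter]; exact ⟨fun h => h.2, fun h => ⟨Finset.mem_univ _, h⟩⟩)
  rw [hG] at h1
  -- only the points fixed by `T` count
  have hT2 : IsPGroup 2 ↥T := S.2.to_le hTS
  have h2 := prod_eq_prod_fixed (T := ↥T) hT2 (F := Finset.univ.filter fun ω : Q => e • ω = ω)
    (F' := Finset.univ.filter fun ω : Q => e • ω = ω ∧ ∀ t : ↥T, t • ω = ω)
    (by
      intro t ω hω
      rw [Finset.mem_filter] at hω ⊢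
      refine ⟨Finset.mem_univ _, ?_⟩
      change e • ((t : G) • ω) = (t : G) • ω
      rw [← mul_smul, ← hTe t t.2, mul_smul, hω.2])
    (fun ω => v ω e)
    (by
      intro t ω hω
      have h3 := (Finset.mem_filter.mp hω).2
      have h4 := hv.conj ω (t : G) e h3
      rw [hTe t t.2, mul_inv_cancel_right] at h4
      exact h4)
    (by
      intro ω hω
      have h3 := (Finset.mem_filter.mp hω).2
      rw [← hv.mul ω e e h3 h3, hee, hv.one])
    (by
      intro ω
      simp only [Finset.mem_filter, Finset.mem_univ, true_and])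
  rw [h2] at h1
  -- on these points the value is `φ e`
  have h3 : ∀ ω ∈ Finset.univ.filter (fun ω : Q => e • ω = ω ∧ ∀ t : ↥T, t • ω = ω),
      v ω e = φ ⟨e, he⟩ := by
    intro ω hω
    obtain ⟨-, h4, h5⟩ := Finset.mem_filter.mp hω
    obtain ⟨h6, h7⟩ := hrep ω ω.out e (QuotientGroup.out_eq' ω) h4
    rw [h7]
    exact hc _ (fun t ht => (hmem ω t).mp (h5 ⟨t, ht⟩)) h6
  rw [Finset.prod_congr rfl h3, Finset.prod_const] at h1
  -- their number is odd
  have h4 : Odd (Finset.univ.filter (fun ω : Q => e • ω = ω ∧ ∀ t : ↥T, t • ω = ω)).card := by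
    have h5 : Nat.card Q ≡ Nat.card (MulAction.fixedPoints ↥T Q) [MOD 2] :=
      hT2.card_modEq_card_fixedPoints Q
    have h6 : Nat.card (MulAction.fixedPoints ↥T Q) =
        (Finset.univ.filter (fun ω : Q => e • ω = ω ∧ ∀ t : ↥T, t • ω = ω)).card := by
      rw [← Fintype.card_coe, ← Nat.card_eq_fintype_card]
      refine Nat.card_congr
        { toFun := fun ω => ⟨ω.1, Finset.mem_filter.mpr ⟨Finset.mem_univ _, ω.2 ⟨e, heT⟩, ω.2⟩⟩
          invFun := fun ω => ⟨ω.1, (Finset.mem_filter.mp ω.2).2.2⟩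
          left_inv := fun _ => rfl
          right_inv := fun _ => rfl }
    have h7 : ¬ 2 ∣ Nat.card Q := by
      have := S.not_dvd_index
      rwa [Subgroup.index] at this
    rw [h6] at h5
    rw [← Nat.not_even_iff_odd, even_iff_two_dvd]
    intro h8
    apply h7
    have h9 := h5.dvd
    rw [Nat.modEq_iff_dvd] at h5
    omega
  obtain ⟨k, hk⟩ := h4
  have h5 : φ ⟨e, he⟩ * φ ⟨e, he⟩ = 1 := by
    rw [← map_mul, ← map_one φ]
    congr 1
    exact Subtype.ext hee
  rw [hk, pow_succ, pow_mul, pow_two, h5, one_pow, one_mul] at h1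
  exact h1.symm

end Cfsg.Agent.H19.CentTransfer
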