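import Mathlib
set_option linter.all false

/-!
# Groups of order 320 with derived subgroup of order 64 and four-group centre of it

* `Rel x c a b`: relations for the semidirect product of a Sylow 2-subgroup of `PSU₃(4)` with a group of
  order five.
* `card_le`: they force the order of the generated group to be at most `320`.
* `nonempty_mulEquiv`: two groups of order `320` generated by such quadruples are isomorphic.
* `Base T Z c`: structural form; `Base.exists_rel`: it supplies a generating quadruple.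
-/

set_option autoImplicit false

namespace Cfsg.Agent.H19.Order320

open Subgroup

section Count

variable {K : Type*} [Group K]

theorem conj_mem_closure {S : Set K} {y : K} (h : ∀ s ∈ S, y * s * y⁻¹ ∈ closure S) {n : K}
    (hn : n ∈ closure S) : y * n * y⁻¹ ∈ closure S := by
  induction hn using Subgroup.closure_induction with
  | mem s hs => exact h s hs
  | one => simp
  | mul a b _ _ ha hb =>
    have : y * (a * b) * y⁻¹ = (y * a * y⁻¹) * (y * b * y⁻¹) := by group
    rw [this]
    exact mul_mem ha hb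
  | inv a _ ha =>
    have : y * a⁻¹ * y⁻¹ = (y * a * y⁻¹)⁻¹ := by group
    rw [this]
    exact inv_mem ha

theorem card_closure_insert_le [Finite K] {S : Set K} {y : K} {n : ℕ} (hn : 0 < n)
    (h : ∀ s ∈ S, y * s * y⁻¹ ∈ closure S) (hy : y ^ n ∈ closure S) :
    Nat.card (closure (insert y S) : Subgroup K) ≤ n * Nat.card (closure S : Subgroup K) := by
  set N := closure S with hN
  have hyN : y ∈ normalizer (N : Set K) :=
    Subgroup.mem_normalizer_fintype fun m hm => conj_mem_closure h hm
  have hconj : ∀ k : ℤ, ∀ m ∈ N, y ^ k * m * (y ^ k)⁻¹ ∈ N := by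
    intro k m hm
    exact (Subgroup.mem_normalizer_iff.mp (Subgroup.zpow_mem _ hyN k) m).mp hm
  have key : ∀ g ∈ closure (insert y S), ∃ k : ℤ, ∃ m ∈ N, g = m * y ^ k := by
    intro g hg
    induction hg using Subgroup.closure_induction with
    | mem g hg =>
      rcases hg with rfl | hg
      · exact ⟨1, 1, one_mem _, by simp⟩
      · exact ⟨0, g, subset_closure hg, by simp⟩
    | one => exact ⟨0, 1, one_mem _, by simp⟩
    | mul g g' _ _ hg hg' =>
      obtain ⟨k, m, hm, rfl⟩ := hg
      obtain ⟨k', m', hm', rfl⟩ := hg'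
      refine ⟨k + k', m * (y ^ k * m' * (y ^ k)⁻¹), mul_mem hm (hconj k m' hm'), ?_⟩
      rw [zpow_add]
      group
    | inv g _ hg =>
      obtain ⟨k, m, hm, rfl⟩ := hg
      refine ⟨-k, y ^ (-k) * m⁻¹ * (y ^ (-k))⁻¹, hconj (-k) _ (inv_mem hm), ?_⟩
      group
  have hmem : ∀ (i : Fin n) (m : N), (m : K) * y ^ (i : ℕ) ∈ closure (insert y S) := by
    intro i m
    refine mul_mem (closure_mono (Set.subset_insert _ _) m.2) (pow_mem (subset_closure ?_) _)
    exact Set.mem_insert _ _
  let f : Fin n × N → (closure (insert y S) : Subgroup K) := fun p => ⟨_, hmem p.1 p.2⟩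
  have hf : Function.Surjective f := by
    rintro ⟨g, hg⟩
    obtain ⟨k, m, hm, rfl⟩ := key g hg
    have hn' : (0 : ℤ) < n := by exact_mod_cast hn
    have hk0 := Int.emod_nonneg k hn'.ne'
    have hk1 := Int.emod_lt_of_pos k hn'
    refine ⟨(⟨(k % n).toNat, by omega⟩, ⟨m * (y ^ n) ^ (k / n), mul_mem hm (zpow_mem hy _)⟩), ?_⟩
    apply Subtype.ext
    change m * (y ^ n) ^ (k / n) * y ^ ((k % n).toNat) = m * y ^ k
    rw [mul_assoc]
    congr 1
    rw [← zpow_natCast y ((k % n).toNat), Int.toNat_of_nonneg hk0, ← zpow_natCast y n, ← zpow_mul, ← zpow_add]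
    congr 1
    exact Int.mul_ediv_add_emod k n
  calc Nat.card (closure (insert y S) : Subgroup K) ≤ Nat.card (Fin n × N) :=
        Nat.card_le_card_of_surjective f hf
    _ = n * Nat.card N := by rw [Nat.card_prod, Nat.card_fin]

end Count

section Rel

variable {K : Type*} [Group K]

/-- The conjugates of `x` under the powers of `c`. -/
def X (x c : K) (i : ℕ) : K := c ^ i * x * (c ^ i)⁻¹

/-- The relations. -/
structure Rel (x c a b : K) : Prop where
  aa : a * a = 1
  bb : b * b = 1
  ab : a * b = b * a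
  ax : a * x = x * a
  bx : b * x = x * b
  ac : a * c = c * a
  bc : b * c = c * b
  c5 : c ^ 5 = 1
  xx : x * x = a * b
  h1 : X x c 0 * X x c 1 = a * (X x c 1 * X x c 0)
  h2 : X x c 0 * X x c 2 = b * (X x c 2 * X x c 0)
  h5 : X x c 0 * X x c 1 * X x c 2 * X x c 3 * X x c 4 = 1

theorem map_X {L : Type*} [Group L] (f : K →* L) (x c : K) (i : ℕ) : f (X x c i) = X (f x) (f c) i := by
  simp [X]

variable {x c a b : K}

theorem X_zero : X x c 0 = x := by simp [X]

theorem conj_X (i : ℕ) : c * X x c i * c⁻¹ = X x c (i + 1) := by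
  simp only [X, pow_succ']
  group

theorem conj_X' (i j : ℕ) : c ^ j * X x c i * (c ^ j)⁻¹ = X x c (j + i) := by
  simp only [X, pow_add]
  group

theorem X_five (h : c ^ 5 = 1) (i : ℕ) : X x c (i + 5) = X x c i := by
  simp only [X, pow_add, h, mul_one]

theorem commute_X {z : K} (h1 : z * x = x * z) (h2 : z * c = c * z) (i : ℕ) :
    z * X x c i = X x c i * z := by
  have hx : Commute z x := h1
  have hc : Commute z c := h2
  exact (((hc.pow_right i).mul_right hx).mul_right (hc.pow_right i).inv_right).eq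

theorem conj_eq_of_commute {z g : K} (h : z * g = g * z) : g * z * g⁻¹ = z := by
  rw [← h, mul_inv_cancel_right]

theorem rel_shift {k : ℕ} {z : K} (hz : z * c = c * z)
    (h : X x c 0 * X x c k = z * (X x c k * X x c 0)) (j : ℕ) :
    X x c j * X x c (j + k) = z * (X x c (j + k) * X x c j) := by
  have h1 := congrArg (fun g => c ^ j * g * (c ^ j)⁻¹) h
  have e1 : c ^ j * (X x c 0 * X x c k) * (c ^ j)⁻¹ =
      (c ^ j * X x c 0 * (c ^ j)⁻¹) * (c ^ j * X x c k * (c ^ j)⁻¹) := by group
  have e2 : c ^ j * (z * (X x c k * X x c 0)) * (c ^ j)⁻¹ =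
      (c ^ j * z * (c ^ j)⁻¹) * ((c ^ j * X x c k * (c ^ j)⁻¹) * (c ^ j * X x c 0 * (c ^ j)⁻¹)) := by group
  have e3 : c ^ j * z * (c ^ j)⁻¹ = z := conj_eq_of_commute ((show Commute z c from hz).pow_right j)
  rw [e1, e2, conj_X', conj_X', e3] at h1
  exact h1

namespace Rel

variable (h : Rel x c a b)
include h

theorem aX (i : ℕ) : a * X x c i = X x c i * a := commute_X h.ax h.ac i

theorem bX (i : ℕ) : b * X x c i = X x c i * b := commute_X h.bx h.bc i

theorem conj_a (j : ℕ) : c ^ j * a * (c ^ j)⁻¹ = a :=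
  conj_eq_of_commute ((show Commute a c from h.ac).pow_right j)

theorem conj_b (j : ℕ) : c ^ j * b * (c ^ j)⁻¹ = b :=
  conj_eq_of_commute ((show Commute b c from h.bc).pow_right j)

theorem rel1 (j : ℕ) : X x c j * X x c (j + 1) = a * (X x c (j + 1) * X x c j) :=
  rel_shift h.ac h.h1 j

theorem rel2 (j : ℕ) : X x c j * X x c (j + 2) = b * (X x c (j + 2) * X x c j) :=
  rel_shift h.bc h.h2 j

theorem sqX (j : ℕ) : X x c j * X x c j = a * b := by
  have h1 : X x c j * X x c j = c ^ j * (x * x) * (c ^ j)⁻¹ := by simp only [X]; group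
  have h2 : c ^ j * (a * b) * (c ^ j)⁻¹ = (c ^ j * a * (c ^ j)⁻¹) * (c ^ j * b * (c ^ j)⁻¹) := by group
  rw [h1, h.xx, h2, h.conj_a, h.conj_b]

theorem ainv : a⁻¹ = a := inv_eq_of_mul_eq_one_right h.aa

theorem binv : b⁻¹ = b := inv_eq_of_mul_eq_one_right h.bb

/-- `X (j+1) X j X(j+1)⁻¹ = a X j` -/
theorem conj1 (j : ℕ) : X x c (j + 1) * X x c j * (X x c (j + 1))⁻¹ = a * X x c j := by
  have h1 := h.rel1 j
  have h2 : X x c (j + 1) * X x c j = a * (X x c j * X x c (j + 1)) := by
    rw [h1, ← mul_assoc, h.aa, one_mul]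
  rw [h2]
  group

theorem conj2 (j : ℕ) : X x c (j + 2) * X x c j * (X x c (j + 2))⁻¹ = b * X x c j := by
  have h1 := h.rel2 j
  have h2 : X x c (j + 2) * X x c j = b * (X x c j * X x c (j + 2)) := by
    rw [h1, ← mul_assoc, h.bb, one_mul]
  rw [h2]
  group

/-- `X 3 X 0 X 3⁻¹ = b X 0` -/
theorem conj3 : X x c 3 * X x c 0 * (X x c 3)⁻¹ = b * X x c 0 := by
  have h1 := h.rel2 3
  have h2 : X x c (3 + 2) = X x c 0 := X_five h.c5 0
  rw [h2] at h1
  rw [h1]
  group

theorem X_four : X x c 4 = (X x c 0 * X x c 1 * X x c 2 * X x c 3)⁻¹ :=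
  (inv_eq_of_mul_eq_one_right h.h5).symm

/-- The order of the generated group. -/
theorem card_le [Finite K] : Nat.card (closure ({x, c, a, b} : Set K) : Subgroup K) ≤ 320 := by
  have s0 : Nat.card (closure (∅ : Set K) : Subgroup K) = 1 := by simp
  have s1 : Nat.card (closure ({b} : Set K) : Subgroup K) ≤ 2 := by
    have := card_closure_insert_le (S := (∅ : Set K)) (y := b) (n := 2) (by norm_num) (by simp)
      (by rw [pow_two, h.bb]; exact one_mem _)
    rw [s0] at this
    simpa using this
  have s2 : Nat.card (closure ({a, b} : Set K) : Subgroup K) ≤ 4 := by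
    have := card_closure_insert_le (S := ({b} : Set K)) (y := a) (n := 2) (by norm_num)
      (by
        rintro s rfl
        rw [conj_eq_of_commute h.ab.symm]
        exact subset_closure rfl)
      (by rw [pow_two, h.aa]; exact one_mem _)
    omega
  have s3 : Nat.card (closure ({X x c 0, a, b} : Set K) : Subgroup K) ≤ 8 := by
    have := card_closure_insert_le (S := ({a, b} : Set K)) (y := X x c 0) (n := 2) (by norm_num)
      (by
        rintro s (rfl | rfl)
        · rw [conj_eq_of_commute (h.aX 0)]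
          exact subset_closure (by simp)
        · rw [conj_eq_of_commute (h.bX 0)]
          exact subset_closure (by simp))
      (by rw [pow_two, h.sqX]; exact mul_mem (subset_closure (by simp)) (subset_closure (by simp)))
    omega
  have s4 : Nat.card (closure ({X x c 1, X x c 0, a, b} : Set K) : Subgroup K) ≤ 16 := by
    have := card_closure_insert_le (S := ({X x c 0, a, b} : Set K)) (y := X x c 1) (n := 2) (by norm_num)
      (by
        rintro s (rfl | rfl | rfl)
        · rw [h.conj1 0]
          exact mul_mem (subset_closure (by simp)) (subset_closure (by simp))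
        · rw [conj_eq_of_commute (h.aX 1)]
          exact subset_closure (by simp)
        · rw [conj_eq_of_commute (h.bX 1)]
          exact subset_closure (by simp))
      (by rw [pow_two, h.sqX]; exact mul_mem (subset_closure (by simp)) (subset_closure (by simp)))
    omega
  have s5 : Nat.card (closure ({X x c 2, X x c 1, X x c 0, a, b} : Set K) : Subgroup K) ≤ 32 := by
    have := card_closure_insert_le (S := ({X x c 1, X x c 0, a, b} : Set K)) (y := X x c 2) (n := 2)
      (by norm_num)
      (by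
        rintro s (rfl | rfl | rfl | rfl)
        · rw [h.conj1 1]
          exact mul_mem (subset_closure (by simp)) (subset_closure (by simp))
        · rw [h.conj2 0]
          exact mul_mem (subset_closure (by simp)) (subset_closure (by simp))
        · rw [conj_eq_of_commute (h.aX 2)]
          exact subset_closure (by simp)
        · rw [conj_eq_of_commute (h.bX 2)]
          exact subset_closure (by simp))
      (by rw [pow_two, h.sqX]; exact mul_mem (subset_closure (by simp)) (subset_closure (by simp)))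
    omega
  have s6 : Nat.card (closure ({X x c 3, X x c 2, X x c 1, X x c 0, a, b} : Set K) : Subgroup K) ≤ 64 := by
    have := card_closure_insert_le (S := ({X x c 2, X x c 1, X x c 0, a, b} : Set K)) (y := X x c 3) (n := 2)
      (by norm_num)
      (by
        rintro s (rfl | rfl | rfl | rfl | rfl)
        · rw [h.conj1 2]
          exact mul_mem (subset_closure (by simp)) (subset_closure (by simp))
        · rw [h.conj2 1]
          exact mul_mem (subset_closure (by simp)) (subset_closure (by simp))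
        · rw [h.conj3]
          exact mul_mem (subset_closure (by simp)) (subset_closure (by simp))
        · rw [conj_eq_of_commute (h.aX 3)]
          exact subset_closure (by simp)
        · rw [conj_eq_of_commute (h.bX 3)]
          exact subset_closure (by simp))
      (by rw [pow_two, h.sqX]; exact mul_mem (subset_closure (by simp)) (subset_closure (by simp)))
    omega
  have s7 : Nat.card (closure ({c, X x c 3, X x c 2, X x c 1, X x c 0, a, b} : Set K) : Subgroup K) ≤ 320 := by
    have := card_closure_insert_le (S := ({X x c 3, X x c 2, X x c 1, X x c 0, a, b} : Set K)) (y := c)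
      (n := 5) (by norm_num)
      (by
        rintro s (rfl | rfl | rfl | rfl | rfl | rfl)
        · rw [conj_X, h.X_four]
          exact inv_mem (mul_mem (mul_mem (mul_mem (subset_closure (by simp)) (subset_closure (by simp)))
            (subset_closure (by simp))) (subset_closure (by simp)))
        · rw [conj_X]
          exact subset_closure (by simp)
        · rw [conj_X]
          exact subset_closure (by simp)
        · rw [conj_X]
          exact subset_closure (by simp)
        · rw [conj_eq_of_commute h.ac]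
          exact subset_closure (by simp)
        · rw [conj_eq_of_commute h.bc]
          exact subset_closure (by simp))
      (by rw [h.c5]; exact one_mem _)
    omega
  have h0 : X x c 0 ∈ closure ({c, X x c 3, X x c 2, X x c 1, X x c 0, a, b} : Set K) :=
    subset_closure (by simp)
  have hc : c ∈ closure ({c, X x c 3, X x c 2, X x c 1, X x c 0, a, b} : Set K) :=
    subset_closure (by simp)
  have ha : a ∈ closure ({c, X x c 3, X x c 2, X x c 1, X x c 0, a, b} : Set K) :=
    subset_closure (by simp)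
  have hb : b ∈ closure ({c, X x c 3, X x c 2, X x c 1, X x c 0, a, b} : Set K) :=
    subset_closure (by simp)
  generalize closure ({c, X x c 3, X x c 2, X x c 1, X x c 0, a, b} : Set K) = N at *
  rw [X_zero] at h0
  refine le_trans (Subgroup.card_le_of_le ?_) s7
  rw [closure_le]
  rintro s (rfl | rfl | rfl | rfl)
  · exact h0
  · exact hc
  · exact ha
  · exact hb

end Rel

theorem X_prod {G H : Type*} [Group G] [Group H] (x c : G) (x' c' : H) (i : ℕ) :
    X (x, x') (c, c') i = (X x c i, X x' c' i) := rfl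

/-- Two groups of order `320` generated by quadruples with the relations are isomorphic. -/
theorem nonempty_mulEquiv {G H : Type*} [Group G] [Finite G] [Group H] [Finite H] {x c a b : G}
    {x' c' a' b' : H} (h : Rel x c a b) (h' : Rel x' c' a' b')
    (hg : closure ({x, c, a, b} : Set G) = ⊤) (hg' : closure ({x', c', a', b'} : Set H) = ⊤)
    (hG : Nat.card G = 320) (hH : Nat.card H = 320) : Nonempty (G ≃* H) := by
  have hR : Rel (x, x') (c, c') (a, a') (b, b') :=
    { aa := Prod.ext h.aa h'.aa
      bb := Prod.ext h.bb h'.bb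
      ab := Prod.ext h.ab h'.ab
      ax := Prod.ext h.ax h'.ax
      bx := Prod.ext h.bx h'.bx
      ac := Prod.ext h.ac h'.ac
      bc := Prod.ext h.bc h'.bc
      c5 := Prod.ext h.c5 h'.c5
      xx := Prod.ext h.xx h'.xx
      h1 := Prod.ext h.h1 h'.h1
      h2 := Prod.ext h.h2 h'.h2
      h5 := Prod.ext h.h5 h'.h5 }
  have hcard := hR.card_le
  set D : Subgroup (G × H) := closure ({(x, x'), (c, c'), (a, a'), (b, b')} : Set (G × H)) with hD
  have h1 : Function.Surjective ((MonoidHom.fst G H).comp D.subtype) := by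
    rw [← MonoidHom.range_eq_top, MonoidHom.range_comp, Subgroup.range_subtype, hD,
      MonoidHom.map_closure, eq_top_iff, ← hg, closure_le]
    rintro s (rfl | rfl | rfl | rfl)
    · exact subset_closure ⟨_, by left; rfl, rfl⟩
    · exact subset_closure ⟨_, by right; left; rfl, rfl⟩
    · exact subset_closure ⟨_, by right; right; left; rfl, rfl⟩
    · exact subset_closure ⟨_, by right; right; right; rfl, rfl⟩
  have h2 : Function.Surjective ((MonoidHom.snd G H).comp D.subtype) := by
    rw [← MonoidHom.range_eq_top, MonoidHom.range_comp, Subgroup.range_subtype, hD,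
      MonoidHom.map_closure, eq_top_iff, ← hg', closure_le]
    rintro s (rfl | rfl | rfl | rfl)
    · exact subset_closure ⟨_, by left; rfl, rfl⟩
    · exact subset_closure ⟨_, by right; left; rfl, rfl⟩
    · exact subset_closure ⟨_, by right; right; left; rfl, rfl⟩
    · exact subset_closure ⟨_, by right; right; right; rfl, rfl⟩
  have b1 := h1.bijective_of_nat_card_le (by rw [hG]; exact hcard)
  have b2 := h2.bijective_of_nat_card_le (by rw [hH]; exact hcard)
  exact ⟨(MulEquiv.ofBijective _ b1).symm.trans (MulEquiv.ofBijective _ b2)⟩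

end Rel

section Base

variable {K : Type*} [Group K]

/-- The structural form of the hypotheses. -/
structure Base (T Z : Subgroup K) (c : K) : Prop where
  cardK : Nat.card K = 320
  cardT : Nat.card T = 64
  cardZ : Nat.card Z = 4
  ZT : Z ≤ T
  nT : ∀ t ∈ T, c * t * c⁻¹ ∈ T
  cen : ∀ z ∈ Z, ∀ t ∈ T, z * t = t * z
  cenc : ∀ z ∈ Z, z * c = c * z
  zz : ∀ z ∈ Z, z * z = 1
  sq : ∀ t ∈ T, t * t ∈ Z
  comm : ∀ t ∈ T, ∀ u ∈ T, t * u * t⁻¹ * u⁻¹ ∈ Z
  c5 : c ^ 5 = 1
  cT : c ∉ T
  fpf : ∀ t ∈ T, c * t * c⁻¹ * t⁻¹ ∈ Z → t ∈ Z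
  gen : ∀ S : Subgroup K, (∀ t ∈ T, t * t ∈ S) → Z ≤ S

theorem card_modEq_five {E : Type*} [Finite E] (f : E → E) (hf : ∀ e, f (f (f (f (f e)))) = e) :
    Nat.card E ≡ Nat.card {e // f e = e} [MOD 5] := by
  classical
  cases nonempty_fintype E
  have : Fact (Nat.Prime 5) := ⟨by norm_num⟩
  have h := Equiv.Perm.card_fixedPoints_modEq (f := (f : Function.End E)) (p := 5) (n := 1) (by
    funext e
    exact hf e)
  rw [Nat.card_eq_fintype_card, Nat.card_eq_fintype_card]
  exact h

/-- The square of the product of four elements. -/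
theorem sq_prod {y0 y1 y2 y3 a b s : K} (h01 : y1 * y0 = a * (y0 * y1)) (h12 : y2 * y1 = a * (y1 * y2))
    (h23 : y3 * y2 = a * (y2 * y3)) (h02 : y2 * y0 = b * (y0 * y2)) (h13 : y3 * y1 = b * (y1 * y3))
    (h03 : y3 * y0 = b * (y0 * y3)) (s0 : y0 * y0 = s) (s1 : y1 * y1 = s) (s2 : y2 * y2 = s)
    (s3 : y3 * y3 = s) (aa : a * a = 1) (bb : b * b = 1) (ss : s * s = 1) (ab : a * b = b * a)
    (as : a * s = s * a) (bs : b * s = s * b)
    (a0 : a * y0 = y0 * a) (a1 : a * y1 = y1 * a) (a2 : a * y2 = y2 * a)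
    (b0 : b * y0 = y0 * b) (b1 : b * y1 = y1 * b)
    (c0 : s * y0 = y0 * s) (c1 : s * y1 = y1 * s) (c2 : s * y2 = y2 * s) :
    (y0 * y1 * y2 * y3) * (y0 * y1 * y2 * y3) = a * b := by
  have L : ∀ {u v w : K}, u * v = w → ∀ t, u * (v * t) = w * t := fun h t => by rw [← mul_assoc, h]
  have L3 : ∀ {u v w z : K}, u * v = z * (w * u) → ∀ t, u * (v * t) = z * (w * (u * t)) := fun h t => by
    rw [← mul_assoc, h]; simp only [mul_assoc]
  have L2 : ∀ {u v : K}, u * v = v * u → ∀ t, v * (u * t) = u * (v * t) := fun h t => by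
    rw [← mul_assoc, ← h, mul_assoc]
  have L1 : ∀ {u : K}, u * u = 1 → ∀ t, u * (u * t) = t := fun h t => by
    rw [← mul_assoc, h, one_mul]
  have key : ∀ t : K, y0 * (y1 * (y2 * (y3 * (y0 * (y1 * (y2 * (y3 * t))))))) = a * (b * t) := by
    intro t
    simp only [L3 h01, L3 h12, L3 h23, L3 h02, L3 h13, L3 h03, L s0, L s1, L s2, L s3, L1 aa, L1 bb, L1 ss,
      L2 ab, L2 as, L2 bs, L2 a0, L2 a1, L2 a2, L2 b0, L2 b1, L2 c0, L2 c1, L2 c2]
  have := key 1
  simp only [mul_one] at this
  simp only [mul_assoc]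
  exact this

variable {T Z : Subgroup K} {c : K}

theorem Base.X_mem (h : Base T Z c) {x : K} (hx : x ∈ T) (i : ℕ) : X x c i ∈ T := by
  induction i with
  | zero => rw [X_zero]; exact hx
  | succ n ih => rw [← conj_X]; exact h.nT _ ih

theorem Base.exists_rel [Finite K] (h : Base T Z c) :
    ∃ x a b, Rel x c a b ∧ closure ({x, c, a, b} : Set K) = ⊤ := by
  -- an element outside `Z` with product `1`
  obtain ⟨x, hxT, hxZ, hx5⟩ : ∃ x ∈ T, x ∉ Z ∧
      X x c 0 * X x c 1 * X x c 2 * X x c 3 * X x c 4 = 1 := by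
    obtain ⟨x, hxT, hxZ⟩ : ∃ x ∈ T, x ∉ Z := by
      by_contra hcon
      push Not at hcon
      have h1 : T ≤ Z := hcon
      have h2 := Subgroup.card_le_of_le h1
      rw [h.cardT, h.cardZ] at h2
      omega
    set p := X x c 0 * X x c 1 * X x c 2 * X x c 3 * X x c 4 with hp
    have hpT : p ∈ T := mul_mem (mul_mem (mul_mem (mul_mem (h.X_mem hxT 0) (h.X_mem hxT 1))
      (h.X_mem hxT 2)) (h.X_mem hxT 3)) (h.X_mem hxT 4)
    have hpZ : p ∈ Z := by
      apply h.fpf p hpT
      have h1 : c * p * c⁻¹ = (X x c 0)⁻¹ * p * ((X x c 0)⁻¹)⁻¹ := by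
        have h2 : c * p * c⁻¹ = (c * X x c 0 * c⁻¹) * (c * X x c 1 * c⁻¹) * (c * X x c 2 * c⁻¹) *
            (c * X x c 3 * c⁻¹) * (c * X x c 4 * c⁻¹) := by rw [hp]; group
        rw [h2]
        simp only [conj_X]
        rw [show X x c (4 + 1) = X x c 0 from X_five h.c5 0, hp]
        group
      rw [h1]
      exact h.comm _ (inv_mem (h.X_mem hxT 0)) _ hpT
    have hpp := h.zz p hpZ
    have hpc := h.cenc p hpZ
    have hXp : ∀ i, X (x * p) c i = X x c i * p := by
      intro i
      have h1 : Commute p (c ^ i) := (show Commute p c from hpc).pow_right i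
      simp only [X]
      calc c ^ i * (x * p) * (c ^ i)⁻¹ = c ^ i * x * (p * (c ^ i)⁻¹) := by group
        _ = c ^ i * x * ((c ^ i)⁻¹ * p) := by rw [h1.inv_right.eq]
        _ = _ := by group
    refine ⟨x * p, mul_mem hxT hpT, fun h1 => hxZ ?_, ?_⟩
    · have : x = x * p * p⁻¹ := by group
      rw [this]
      exact mul_mem h1 (inv_mem hpZ)
    · have hcom : ∀ i, Commute p (X x c i) := fun i => h.cen p hpZ _ (h.X_mem hxT i)
      simp only [hXp]
      have e : X x c 0 * p * (X x c 1 * p) * (X x c 2 * p) * (X x c 3 * p) * (X x c 4 * p) =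
          (X x c 0 * X x c 1 * X x c 2 * X x c 3 * X x c 4) * ((p * p) * (p * p) * p) := by
        have c1 := (hcom 1).eq
        have c2 := (hcom 2).eq
        have c3 := (hcom 3).eq
        have c4 := (hcom 4).eq
        calc X x c 0 * p * (X x c 1 * p) * (X x c 2 * p) * (X x c 3 * p) * (X x c 4 * p)
            = X x c 0 * (p * X x c 1) * p * (X x c 2 * p) * (X x c 3 * p) * (X x c 4 * p) := by group
          _ = X x c 0 * X x c 1 * (p * p) * (X x c 2 * p) * (X x c 3 * p) * (X x c 4 * p) := by
              rw [c1]; group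
          _ = X x c 0 * X x c 1 * X x c 2 * (p * X x c 3) * p * (X x c 4 * p) := by rw [hpp]; group
          _ = X x c 0 * X x c 1 * X x c 2 * X x c 3 * (p * p) * (X x c 4 * p) := by rw [c3]; group
          _ = _ := by rw [hpp]; group
      rw [e, hpp, ← hp]
      simp [hpp]
  -- the commutators
  set a := X x c 0 * X x c 1 * (X x c 0)⁻¹ * (X x c 1)⁻¹ with ha
  set b := X x c 0 * X x c 2 * (X x c 0)⁻¹ * (X x c 2)⁻¹ with hb
  have hXT := h.X_mem hxT
  have haZ : a ∈ Z := h.comm _ (hXT 0) _ (hXT 1)
  have hbZ : b ∈ Z := h.comm _ (hXT 0) _ (hXT 2)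
  have hsZ : x * x ∈ Z := h.sq x hxT
  have h1 : X x c 0 * X x c 1 = a * (X x c 1 * X x c 0) := by rw [ha]; group
  have h2 : X x c 0 * X x c 2 = b * (X x c 2 * X x c 0) := by rw [hb]; group
  have r1 := rel_shift (h.cenc a haZ) h1
  have r2 := rel_shift (h.cenc b hbZ) h2
  have aa := h.zz a haZ
  have bb := h.zz b hbZ
  have fl : ∀ {u v z : K}, z * z = 1 → u * v = z * (v * u) → v * u = z * (u * v) := by
    intro u v z hz huv
    rw [huv, ← mul_assoc, hz, one_mul]
  have hsq : ∀ i, X x c i * X x c i = x * x := by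
    intro i
    have e1 : X x c i * X x c i = c ^ i * (x * x) * (c ^ i)⁻¹ := by simp only [X]; group
    rw [e1]
    exact conj_eq_of_commute ((show Commute (x * x) c from h.cenc _ hsZ).pow_right i)
  have e3 : X x c 3 * X x c 0 = b * (X x c 0 * X x c 3) := by
    have := r2 3
    rwa [show X x c (3 + 2) = X x c 0 from X_five h.c5 0] at this
  have hxx : x * x = a * b := by
    have e1 := sq_prod (fl aa (r1 0)) (fl aa (r1 1)) (fl aa (r1 2)) (fl bb (r2 0)) (fl bb (r2 1)) e3
      (hsq 0) (hsq 1) (hsq 2) (hsq 3) aa bb (h.zz _ hsZ) (h.cen a haZ b (h.ZT hbZ))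
      (h.cen a haZ _ (h.ZT hsZ)) (h.cen b hbZ _ (h.ZT hsZ))
      (h.cen a haZ _ (hXT 0)) (h.cen a haZ _ (hXT 1)) (h.cen a haZ _ (hXT 2))
      (h.cen b hbZ _ (hXT 0)) (h.cen b hbZ _ (hXT 1))
      (h.cen _ hsZ _ (hXT 0)) (h.cen _ hsZ _ (hXT 1)) (h.cen _ hsZ _ (hXT 2))
    have e4 : X x c 0 * X x c 1 * X x c 2 * X x c 3 = (X x c 4)⁻¹ := eq_inv_of_mul_eq_one_left hx5
    rw [e4, ← mul_inv_rev, hsq 4, inv_eq_of_mul_eq_one_right (h.zz _ hsZ)] at e1
    exact e1
  have hR : Rel x c a b :=
    { aa := aa
      bb := bb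
      ab := h.cen a haZ b (h.ZT hbZ)
      ax := h.cen a haZ x hxT
      bx := h.cen b hbZ x hxT
      ac := h.cenc a haZ
      bc := h.cenc b hbZ
      c5 := h.c5
      xx := hxx
      h1 := h1
      h2 := h2
      h5 := hx5 }
  refine ⟨x, a, b, hR, ?_⟩
  -- generation
  set D := closure ({x, c, a, b} : Set K) with hD
  have hxD : x ∈ D := subset_closure (by simp)
  have hcD : c ∈ D := subset_closure (by simp)
  let E : Subgroup K :=
    { carrier := {t | t ∈ T ∧ ∃ z ∈ Z, t * z ∈ D}
      one_mem' := ⟨one_mem _, 1, one_mem _, by simp⟩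
      mul_mem' := by
        rintro t t' ⟨ht, z, hz, hd⟩ ⟨ht', z', hz', hd'⟩
        refine ⟨mul_mem ht ht', z * z', mul_mem hz hz', ?_⟩
        have e1 : t * t' * (z * z') = t * z * (t' * z') := by
          calc t * t' * (z * z') = t * (t' * z) * z' := by group
            _ = t * (z * t') * z' := by rw [h.cen z hz t' ht']
            _ = _ := by group
        rw [e1]
        exact mul_mem hd hd'
      inv_mem' := by
        rintro t ⟨ht, z, hz, hd⟩
        refine ⟨inv_mem ht, z⁻¹, inv_mem hz, ?_⟩
        rw [← mul_inv_rev, h.cen z hz t ht]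
        exact inv_mem hd }
  have hEmem : ∀ t, t ∈ E ↔ t ∈ T ∧ ∃ z ∈ Z, t * z ∈ D := fun t => Iff.rfl
  have hET : E ≤ T := fun t ht => ht.1
  have hZE : Z ≤ E := fun z hz => ⟨h.ZT hz, z⁻¹, inv_mem hz, by simp⟩
  have hxE : x ∈ E := ⟨hxT, 1, one_mem _, by simpa using hxD⟩
  have hcE : ∀ t ∈ E, c * t * c⁻¹ ∈ E := by
    rintro t ⟨ht, z, hz, hd⟩
    refine ⟨h.nT t ht, z, hz, ?_⟩
    have e1 : c * t * c⁻¹ * z = c * (t * z) * c⁻¹ := by
      have hzc : Commute z c := h.cenc z hz
      calc c * t * c⁻¹ * z = c * t * (c⁻¹ * z) := by group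
        _ = c * t * (z * c⁻¹) := by rw [hzc.inv_right.eq]
        _ = _ := by group
    rw [e1]
    exact mul_mem (mul_mem hcD hd) (inv_mem hcD)
  let f : E → E := fun e => ⟨c * e * c⁻¹, hcE e e.2⟩
  have hfix : Nat.card {e : E // f e = e} = 4 := by
    rw [← h.cardZ]
    refine Nat.card_congr
      { toFun := fun e => ⟨(e.1 : K), h.fpf _ (hET e.1.2) (by
          have h3 : c * (e.1 : K) * c⁻¹ = e.1 := congrArg Subtype.val e.2
          rw [h3, mul_inv_cancel]
          exact one_mem _)⟩
        invFun := fun z => ⟨⟨z, hZE z.2⟩, Subtype.ext (conj_eq_of_commute (h.cenc z z.2))⟩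
        left_inv := fun _ => rfl
        right_inv := fun _ => rfl }
  have hmod := card_modEq_five f (by
    intro e
    apply Subtype.ext
    change c * (c * (c * (c * (c * e * c⁻¹) * c⁻¹) * c⁻¹) * c⁻¹) * c⁻¹ = e
    have h5 : c * c * c * c * c = 1 := by
      have := h.c5
      simpa only [pow_succ, pow_zero, one_mul] using this
    calc c * (c * (c * (c * (c * e * c⁻¹) * c⁻¹) * c⁻¹) * c⁻¹) * c⁻¹ =
          (c * c * c * c * c) * e * (c * c * c * c * c)⁻¹ := by group
      _ = e := by rw [h5]; group)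
  rw [hfix] at hmod
  have hE64 : Nat.card E = 64 := by
    have h3 : Nat.card E ∣ 2 ^ 6 := by
      have := Subgroup.card_dvd_of_le hET
      rw [h.cardT] at this
      exact this
    obtain ⟨k, hk, hk2⟩ := (Nat.dvd_prime_pow Nat.prime_two).mp h3
    rw [hk2] at hmod ⊢
    have hk4 : k ≠ 2 := by
      rintro rfl
      have h4 : Z = E := Subgroup.eq_of_le_of_card_ge hZE (by rw [hk2, h.cardZ]; norm_num)
      rw [← h4] at hxE
      exact hxZ hxE
    interval_cases k
    · exact absurd hmod (by decide)
    · exact absurd hmod (by decide)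
    · exact absurd rfl hk4
    · exact absurd hmod (by decide)
    · exact absurd hmod (by decide)
    · exact absurd hmod (by decide)
    · norm_num
  have hETeq : E = T := Subgroup.eq_of_le_of_card_ge hET (by rw [hE64, h.cardT])
  have hZD : Z ≤ D := by
    apply h.gen
    intro t ht
    rw [← hETeq] at ht
    obtain ⟨htT, z, hz, hd⟩ := ht
    have e1 : t * t = (t * z) * (t * z) := by
      calc t * t = t * (t * (z * z)) := by rw [h.zz z hz, mul_one]
        _ = t * (t * z * z) := by group
        _ = t * (z * t * z) := by rw [h.cen z hz t htT]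
        _ = _ := by group
    rw [e1]
    exact mul_mem hd hd
  have hTD : T ≤ D := by
    intro t ht
    rw [← hETeq] at ht
    obtain ⟨htT, z, hz, hd⟩ := ht
    have : t = t * z * z⁻¹ := by group
    rw [this]
    exact mul_mem hd (inv_mem (hZD hz))
  have hdvd : 64 ∣ Nat.card D := by
    rw [← h.cardT]
    exact Subgroup.card_dvd_of_le hTD
  have hdvd2 : Nat.card D ∣ 320 := by
    rw [← h.cardK]
    exact Subgroup.card_subgroup_dvd_card D
  have hne : Nat.card D ≠ 64 := by
    intro h3
    have h4 : T = D := Subgroup.eq_of_le_of_card_ge hTD (by rw [h3, h.cardT])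
    rw [← h4] at hcD
    exact h.cT hcD
  obtain ⟨m, hm⟩ := hdvd
  have hm5 : m ∣ 5 := by
    rw [hm, show 320 = 64 * 5 from rfl] at hdvd2
    exact Nat.dvd_of_mul_dvd_mul_left (by norm_num) hdvd2
  rcases (Nat.dvd_prime (by norm_num : Nat.Prime 5)).mp hm5 with rfl | rfl
  · exact absurd (by omega) hne
  · exact Subgroup.eq_top_of_card_eq D (by rw [hm, h.cardK])

/-- Uniqueness. -/
theorem Base.nonempty_mulEquiv {G H : Type*} [Group G] [Finite G] [Group H] [Finite H]
    {T Z : Subgroup G} {c : G} {T' Z' : Subgroup H} {c' : H} (h : Base T Z c) (h' : Base T' Z' c') :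
    Nonempty (G ≃* H) := by
  obtain ⟨x, a, b, hR, hg⟩ := h.exists_rel
  obtain ⟨x', a', b', hR', hg'⟩ := h'.exists_rel
  exact Order320.nonempty_mulEquiv hR hR' hg hg' h.cardK h'.cardK

end Base

end Cfsg.Agent.H19.Order320
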