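import Cfsg.Agent.TwoFusion.GoldU34
import Cfsg.Agent.H19.Order320
set_option linter.all false

/-!
# The centraliser of an involution of `PSU₃(4)`
-/

set_option autoImplicit false

namespace Cfsg.Agent.H19.U34Cent

open Subgroup Cfsg.Agent.LieRecognition Cfsg.Agent.LieRecognition.PSUThreeSylow
open Cfsg.Agent.LieRecognition.HermHeis Cfsg.Agent.SuzukiRankOne
open Cfsg.Agent.TwoFusion Cfsg.Agent.TwoFusion.GoldU34
open Cfsg.Agent.H19.Order320

/-- Centralisers of corresponding elements are isomorphic. -/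
def centEquiv {G H : Type*} [Group G] [Group H] (e : G ≃* H) (x : G) :
    centralizer ({x} : Set G) ≃* centralizer ({e x} : Set H) where
  toFun c := ⟨e c, by
    rw [mem_centralizer_singleton_iff, ← map_mul, ← map_mul, mem_centralizer_singleton_iff.mp c.2]⟩
  invFun c := ⟨e.symm c, by
    rw [mem_centralizer_singleton_iff]
    apply e.injective
    rw [map_mul, map_mul, e.apply_symm_apply]
    exact mem_centralizer_singleton_iff.mp c.2⟩
  left_inv c := Subtype.ext (e.symm_apply_apply _)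
  right_inv c := Subtype.ext (e.apply_symm_apply _)
  map_mul' a b := Subtype.ext (map_mul e _ _)

variable {F : Type*} [Field F] [CharP F 2] {σ : F →+* F} [hσ : Fact (∀ x, σ (σ x) = x)]

/-- Elements commuting with a central unipotent element. -/
theorem entries {x : Heis σ} (ha : x.a = 0) (hb : x.b ≠ 0) {g : SUJ σ} (hg : g * emb σ x = emb σ x * g) :
    g.1.1 1 0 = 0 ∧ g.1.1 2 0 = 0 ∧ g.1.1 0 0 * σ (g.1.1 0 0) = 1 := by
  have hm : g.1.1 * umat x = umat x * g.1.1 := congrArg (fun k : SUJ σ => k.1.1) hg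
  have c02 := congrFun (congrFun hm 0) 2
  have c12 := congrFun (congrFun hm 1) 2
  have c22 := congrFun (congrFun hm 2) 2
  simp [umat, Matrix.mul_apply, Fin.sum_univ_three, ha] at c02 c12 c22
  have h20 : g.1.1 2 0 = 0 := c22.resolve_right hb
  have h10 : g.1.1 1 0 = 0 := c12.resolve_right hb
  have h00 : g.1.1 0 0 = g.1.1 2 2 := by
    have h1 : (g.1.1 0 0 - g.1.1 2 2) * x.b = 0 := by linear_combination c02
    exact sub_eq_zero.mp ((mul_eq_zero.mp h1).resolve_right hb)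
  have e := entry_of_mem_SUJ g.2 0 2
  simp [Jm, h10, h20] at e
  refine ⟨h10, h20, ?_⟩
  rw [← h00] at e
  exact e

/-- The facts for the centraliser of a central unipotent element. -/
theorem base_model [Finite F] (hs : ∀ x, σ x = x ^ 4) (hF : Nat.card F = 4 ^ 2) :
    ∃ t : SUJ σ, orderOf t = 2 ∧ ∃ (T Z : Subgroup (centralizer ({t} : Set (SUJ σ))))
      (c : centralizer ({t} : Set (SUJ σ))), Base T Z c := by
  have hd := data_model hs hF
  have hq : 1 < 4 := by norm_num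
  have hmem : ∀ x : Heis σ, x ∈ center (Heis σ) ↔ x.a = 0 := fun x => mem_center_iff hq hs hF x
  have hmem' : ∀ x : Heis σ, emb σ x ∈ (center (Heis σ)).map (emb σ) ↔ x.a = 0 := by
    intro x
    rw [← hmem]
    constructor
    · rintro ⟨y, hy, e⟩
      rwa [← emb_injective e]
    · intro hx
      exact ⟨x, hx, rfl⟩
  -- the element of order five
  obtain ⟨l, hl5, hl1⟩ : ∃ l : F, l ^ 5 = 1 ∧ l ≠ 1 := by
    obtain ⟨g, hg⟩ := IsCyclic.exists_generator (α := Fˣ)
    have hog : orderOf g = 15 := by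
      rw [orderOf_eq_card_of_forall_mem_zpowers hg]
      classical
      let _ : Fintype F := Fintype.ofFinite F
      rw [Nat.card_eq_fintype_card] at hF
      rw [Nat.card_eq_fintype_card, Fintype.card_units, hF]
      norm_num
    refine ⟨((g ^ 3 : Fˣ) : F), ?_, ?_⟩
    · rw [← Units.val_pow_eq_pow_val, ← pow_mul]
      have := pow_orderOf_eq_one g
      rw [hog] at this
      rw [this, Units.val_one]
    · intro h
      have h1 : g ^ 3 = 1 := Units.ext h
      have h2 := orderOf_dvd_of_pow_eq_one h1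
      rw [hog] at h2
      norm_num at h2
  have hl0 : l ≠ 0 := by
    rintro rfl
    norm_num at hl5
  have hlσ : l * σ l = 1 := by rw [hs, ← hl5]; ring
  -- the involution
  obtain ⟨x0, hx0⟩ : ∃ x0 : Heis σ, x0 ∈ center (Heis σ) ∧ x0 ≠ 1 := by
    have h1 := card_center (σ := σ) hq hs hF
    have : Nontrivial (center (Heis σ)) := by
      rw [← Finite.one_lt_card_iff_nontrivial, h1]
      norm_num
    obtain ⟨⟨y, hy⟩, hy1⟩ := exists_ne (1 : center (Heis σ))
    exact ⟨y, hy, fun h => hy1 (Subtype.ext h)⟩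
  have ha0 : x0.a = 0 := (hmem x0).mp hx0.1
  have hb0 : x0.b ≠ 0 := PSUModel.b_ne_zero hx0.2
  set t : SUJ σ := emb σ x0 with ht
  have hot : orderOf t = 2 := by
    apply orderOf_eq_prime
    · rw [pow_two, ht, ← map_mul, (HermHeis.mul_self_eq_one_iff x0).mpr ha0, map_one]
    · intro h
      exact hx0.2 (emb_injective (h.trans (map_one _).symm))
  refine ⟨t, hot, ?_⟩
  set K := centralizer ({t} : Set (SUJ σ)) with hK
  have hmemK : ∀ g, g ∈ K ↔ g * t = t * g := fun g => mem_centralizer_singleton_iff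
  have hTK : (emb σ).range ≤ K := by
    rintro _ ⟨y, rfl⟩
    rw [hmemK, ht, ← map_mul, ← map_mul, (mem_center_iff.mp hx0.1 y)]
  have hZK : (center (Heis σ)).map (emb σ) ≤ K := hd.Z_le.trans hTK
  have hcK : dg σ l hl0 ∈ K := by
    rw [hmemK]
    refine dg_mul_emb l hl0 x0 x0 ?_ ?_
    · rw [ha0, mul_zero]
    · rw [hlσ, one_mul]
  have hcval : (dg σ l hl0).1.1 0 0 = l := by rw [dg_val]; rfl
  have hconj : ∀ x y : Heis σ, y.a = l ^ 2 / σ l * x.a → y.b = l * σ l * x.b →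
      dg σ l hl0 * emb σ x * (dg σ l hl0)⁻¹ = emb σ y := by
    intro x y h1 h2
    rw [dg_mul_emb l hl0 x y h1 h2, mul_inv_cancel_right]
  have hfin : Finite (SUJ σ) := by
    have : Finite (Matrix.SpecialLinearGroup (Fin 3) F) := Subtype.finite
    exact Subtype.finite
  have hc5 : dg σ l hl0 ^ 5 = 1 := by
    rw [dg_pow]
    have e : dg σ (l ^ 5) (pow_ne_zero 5 hl0) = dg σ 1 one_ne_zero := by
      congr 1
    rw [e, dg_one]
  have hcardT : Nat.card ((emb σ).range.subgroupOf K) = 64 := by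
    rw [Nat.card_congr (Subgroup.subgroupOfEquivOfLe hTK).toEquiv, hd.card_T]
  -- the order of `K`
  have hcardK : Nat.card K = 320 := by
    have hent : ∀ g : K, g.1.1.1 1 0 = 0 ∧ g.1.1.1 2 0 = 0 ∧ g.1.1.1 0 0 * σ (g.1.1.1 0 0) = 1 :=
      fun g => entries ha0 hb0 ((hmemK _).mp g.2)
    let χ : K →* F :=
      { toFun := fun g => g.1.1.1 0 0
        map_one' := by
          change (1 : Matrix (Fin 3) (Fin 3) F) 0 0 = 1
          simp
        map_mul' := by
          intro g h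
          change (g.1.1.1 * h.1.1.1) 0 0 = _
          rw [Matrix.mul_apply, Fin.sum_univ_three, (hent h).1, (hent h).2.1]
          ring }
    let χ' : K →* Fˣ := χ.toHomUnits
    have hχ' : ∀ g : K, ((χ' g : Fˣ) : F) = g.1.1.1 0 0 := fun g => rfl
    have hker : χ'.ker = (emb σ).range.subgroupOf K := by
      ext g
      rw [MonoidHom.mem_ker, mem_subgroupOf]
      constructor
      · intro h
        have h1 : g.1.1.1 0 0 = 1 := by rw [← hχ', h]; rfl
        exact mem_range_of_col h1 (hent g).1 (hent g).2.1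
      · rintro ⟨y, hy⟩
        apply Units.ext
        rw [hχ', ← hy, emb_val]
        rfl
    have hcyc : IsCyclic χ'.range := inferInstance
    have hexp : Nat.card χ'.range ∣ 5 := by
      rw [← IsCyclic.exponent_eq_card]
      apply Monoid.exponent_dvd_of_forall_pow_eq_one
      rintro ⟨_, g, rfl⟩
      apply Subtype.ext
      apply Units.ext
      change ((χ' g : Fˣ) : F) ^ 5 = 1
      rw [hχ']
      have h := (hent g).2.2
      rw [hs] at h
      linear_combination h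
    have hne : Nat.card χ'.range ≠ 1 := by
      intro h
      rw [Nat.card_eq_one_iff_unique] at h
      obtain ⟨h1, -⟩ := h
      have h2 := h1.elim ⟨χ' ⟨_, hcK⟩, ⟨_, rfl⟩⟩ 1
      have h3 : χ' ⟨_, hcK⟩ = 1 := congrArg Subtype.val h2
      have h4 := congrArg Units.val h3
      rw [hχ'] at h4
      apply hl1
      rw [← hcval]
      exact h4
    have h5 : Nat.card χ'.range = 5 := ((Nat.dvd_prime (by norm_num)).mp hexp).resolve_left hne
    have h6 := Subgroup.card_mul_index χ'.ker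
    rw [Subgroup.index_ker, h5, hker, hcardT] at h6
    exact h6.symm
  refine ⟨(emb σ).range.subgroupOf K, ((center (Heis σ)).map (emb σ)).subgroupOf K, ⟨_, hcK⟩,
    { cardK := hcardK
      cardT := hcardT
      cardZ := by rw [Nat.card_congr (Subgroup.subgroupOfEquivOfLe hZK).toEquiv, hd.card_Z]
      ZT := fun z hz => hd.Z_le hz
      nT := ?_
      cen := fun z hz t ht => Subtype.ext (hd.central z hz t ht)
      cenc := ?_
      zz := fun z hz => Subtype.ext (hd.sq_eq z hz)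
      sq := fun t ht => hd.sq_mem t ht
      comm := fun t ht u hu => hd.comm_mem t ht u hu
      c5 := Subtype.ext hc5
      cT := ?_
      fpf := ?_
      gen := ?_ }⟩
  · rintro ⟨_, hgK⟩ ⟨x, rfl⟩
    obtain ⟨y, hy1, hy2⟩ := exists_dg_conj (σ := σ) l hl0 x
    exact ⟨y, (hconj x y hy1 hy2).symm⟩
  · rintro ⟨_, hgK⟩ ⟨z, hz, rfl⟩
    apply Subtype.ext
    refine (dg_mul_emb l hl0 z z ?_ ?_).symm
    · rw [(hmem z).mp hz, mul_zero]
    · rw [hlσ, one_mul]
  · rintro ⟨y, hy⟩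
    apply hl1
    rw [← hcval]
    have h1 : (emb σ y).1.1 0 0 = (dg σ l hl0).1.1 0 0 := congrArg (fun g : SUJ σ => g.1.1 0 0) hy
    rw [← h1, emb_val]
    rfl
  · rintro ⟨_, hgK⟩ ⟨x, rfl⟩ h
    obtain ⟨y, hy1, hy2⟩ := exists_dg_conj (σ := σ) l hl0 x
    have h1 : dg σ l hl0 * emb σ x * (dg σ l hl0)⁻¹ * (emb σ x)⁻¹ ∈ (center (Heis σ)).map (emb σ) := h
    rw [hconj x y hy1 hy2, ← map_inv, ← map_mul, hmem', mul_a, inv_a, hy1] at h1
    change emb σ x ∈ (center (Heis σ)).map (emb σ)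
    rw [hmem']
    have hσl : σ l ≠ 0 := (map_ne_zero σ).mpr hl0
    have h2 : l ^ 2 / σ l = l ^ 3 := by
      rw [div_eq_iff hσl, ← mul_one (l ^ 2), ← hlσ]
      ring
    rw [h2] at h1
    have h3 : (l ^ 3 + 1) * x.a = 0 := by linear_combination h1
    rcases mul_eq_zero.mp h3 with h4 | h4
    · exfalso
      have h5 : l ^ 3 = 1 := CharTwo.add_eq_zero.mp h4
      apply hl1
      have h6 : l ^ 6 = 1 := by rw [show 6 = 3 * 2 from rfl, pow_mul, h5, one_pow]
      have h7 : l ^ 6 = l ^ 5 * l := by ring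
      rw [h7, hl5, one_mul] at h6
      exact h6
    · exact h4
  · intro S hS z hz
    obtain ⟨x, hx⟩ := exists_heis_a (σ := σ) hq hs hF 1
    have hxZ : emb σ x ∉ (center (Heis σ)).map (emb σ) := by
      rw [hmem', hx]
      exact one_ne_zero
    obtain ⟨u, ⟨y, rfl⟩, hu⟩ := hd.surj (emb σ x) ⟨x, rfl⟩ hxZ z hz
    have hxK := hTK ⟨x, rfl⟩
    have hyK := hTK ⟨y, rfl⟩
    have e1 : z = (((⟨emb σ x, hxK⟩ : K) * ⟨emb σ y, hyK⟩) * ((⟨emb σ x, hxK⟩ : K) * ⟨emb σ y, hyK⟩)) *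
        (((⟨emb σ y, hyK⟩ : K)⁻¹ * (⟨emb σ x, hxK⟩ : K)⁻¹ * ⟨emb σ y, hyK⟩) *
          ((⟨emb σ y, hyK⟩ : K)⁻¹ * (⟨emb σ x, hxK⟩ : K)⁻¹ * ⟨emb σ y, hyK⟩)) *
        ((⟨emb σ y, hyK⟩ : K)⁻¹ * (⟨emb σ y, hyK⟩ : K)⁻¹) := by
      have e2 : z = (⟨emb σ x, hxK⟩ : K) * ⟨emb σ y, hyK⟩ * (⟨emb σ x, hxK⟩ : K)⁻¹ *
          (⟨emb σ y, hyK⟩ : K)⁻¹ := Subtype.ext hu.symm
      rw [e2]
      group
    have hx' : (⟨emb σ x, hxK⟩ : K) ∈ (emb σ).range.subgroupOf K := ⟨x, rfl⟩
    have hy' : (⟨emb σ y, hyK⟩ : K) ∈ (emb σ).range.subgroupOf K := ⟨y, rfl⟩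
    rw [e1]
    exact mul_mem (mul_mem (hS _ (mul_mem hx' hy')) (hS _ (mul_mem (mul_mem (inv_mem hy') (inv_mem hx')) hy')))
      (hS _ (inv_mem hy'))

omit [CharP F 2] in
/-- A group as in `Base` is isomorphic to the centraliser of an involution of `PSU₃(4)`. -/
theorem exists_equiv [Fintype F] (hF : Fintype.card F = 16) {G : Type*} [Group G] [Finite G]
    {T₀ Z₀ : Subgroup G} {c₀ : G} (h₀ : Base T₀ Z₀ c₀) :
    ∃ t : Cfsg.PSU 3 F 4, orderOf t = 2 ∧ Nonempty (G ≃* centralizer ({t} : Set (Cfsg.PSU 3 F 4))) := by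
  have hF' : Nat.card F = (2 ^ 2) ^ 2 := by rw [Nat.card_eq_fintype_card, hF]; norm_num
  obtain ⟨h2, σ, hinv, hs, -, -⟩ := exists_heis_equiv F (show 1 ≤ 2 by norm_num) hF'
  have hs' : ∀ x, σ x = x ^ 4 := by intro x; rw [hs]; norm_num
  have hF4 : Nat.card F = 4 ^ 2 := by rw [hF']; norm_num
  obtain ⟨c, hc⟩ := HermHeis.exists_not_fixed (σ := σ) (by norm_num : 1 < 4) hs' hF4
  obtain ⟨A, A', hAA', hA⟩ := exists_T hc
  let e1 : SUJ σ ≃* Cfsg.SU 3 F 4 :=
    ((conjT hAA').subgroupMap (SUJ σ)).trans (MulEquiv.subgroupCongr (SU_eq_map hs' hAA' hA))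
  have hcen : Subgroup.center (Cfsg.SU 3 F 4) = ⊥ := U34Sylow.center_eq_bot hF
  let e2 : Cfsg.SU 3 F 4 ≃* Cfsg.PSU 3 F 4 :=
    (QuotientGroup.quotientBot.symm).trans (QuotientGroup.quotientMulEquivOfEq hcen.symm)
  let f : SUJ σ ≃* Cfsg.PSU 3 F 4 := e1.trans e2
  obtain ⟨t, ht, T, Z, c, hB⟩ := base_model (σ := σ) hs' hF4
  have hfin : Finite (SUJ σ) := by
    have : Finite (Matrix.SpecialLinearGroup (Fin 3) F) := Subtype.finite
    exact Subtype.finite
  obtain ⟨e⟩ := h₀.nonempty_mulEquiv hB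
  refine ⟨f t, ?_, ⟨e.trans (centEquiv f t)⟩⟩
  rw [f.orderOf_eq, ht]

end Cfsg.Agent.H19.U34Cent
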